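import Cfsg.Agent.H390.RC.Reps

/-!
# S3509: primitive groups of degree seven (helper390)
-/

set_option autoImplicit false
set_option maxRecDepth 100000

namespace Cfsg.Agent.H390.RR

open Equiv Equiv.Perm Cfsg.Agent.H390.RC

/-- no three-cycle and no transposition -/
def NoSC {n : ℕ} (M : Subgroup (Perm (Fin n))) : Prop := ∀ x ∈ M, ¬ IsThreeCycle x ∧ ¬ IsSwap x

theorem NoSC.map {n : ℕ} {M : Subgroup (Perm (Fin n))} (h : NoSC M) (c : Perm (Fin n)) :
    NoSC (M.map (MulAut.conj c).toMonoidHom) := by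
  rintro _ ⟨x, hx, rfl⟩
  have h1 : (c * x * c⁻¹).cycleType = x.cycleType := cycleType_conj
  change ¬ IsThreeCycle (c * x * c⁻¹) ∧ ¬ IsSwap (c * x * c⁻¹)
  refine ⟨fun h3 => (h x hx).1 ?_, fun h2 => (h x hx).2 ?_⟩
  · unfold IsThreeCycle at h3 ⊢
    rwa [h1] at h3
  · rw [← card_support_eq_two, card_support_conj] at h2
    rwa [card_support_eq_two] at h2

theorem NoSC.of_prim {n : ℕ} {M : Subgroup (Perm (Fin n))} (hp : MulAction.IsPreprimitive M (Fin n))
    (hA : ¬ alternatingGroup (Fin n) ≤ M) : NoSC M := by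
  intro x hx
  refine ⟨fun h3 => hA (alternatingGroup_le_of_isPreprimitive_of_isThreeCycle_mem hp h3 hx), fun h2 => hA ?_⟩
  rw [subgroup_eq_top_of_isPreprimitive_of_isSwap_mem hp x h2 hx]
  exact le_top

variable {M : Subgroup (Perm (Fin 7))} {x y : Perm (Fin 7)}

theorem kill (hM : NoSC M) (h : Cov2 M x y) (hy : IsThreeCycle y ∨ IsSwap y) (c : Perm (Fin 7)) (hc : sign c = 1)
    (h3 : IsThreeCycle (x⁻¹ * (c * x * c⁻¹))) : False := by
  have h1 : ∀ a : Perm (Fin 7), sign a = 1 → a * x * a⁻¹ ∈ M := by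
    intro a ha
    refine (h a ha).resolve_right fun hm => ?_
    have h2 := hM _ hm
    rcases hy with hy | hy
    · apply h2.1
      unfold IsThreeCycle at hy ⊢
      rw [cycleType_conj, hy]
    · apply h2.2
      rw [← card_support_eq_two, card_support_conj]
      rwa [card_support_eq_two]
  have h2 := h1 1 (map_one _)
  rw [one_mul, inv_one, mul_one] at h2
  exact (hM _ (M.mul_mem (M.inv_mem h2) (h1 c hc))).1 h3

theorem isThree (σ : Perm (Fin 7)) (h : σ.cycleType = {3}) : IsThreeCycle σ := h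

theorem k32 (hM : NoSC M) (h : CovG M (cy 0 1 2 * swap 3 4)) : False := by
  have ho : orderOf (cy 0 1 2 * swap 3 4 : Perm (Fin 7)) = 6 := by
    rw [← lcm_cycleType, show (cy 0 1 2 * swap 3 4 : Perm (Fin 7)).cycleType = {3, 2} by decide +kernel]
    decide
  have h1 : Cov2 M (swap 3 4) (cy 0 2 1) := h.cov2 ho (fun r => prime_six) (by decide) (by decide)
  rcases h1 1 (map_one _) with h2 | h2
  · rw [one_mul, inv_one, mul_one] at h2
    exact (hM _ h2).2 ⟨3, 4, by decide, rfl⟩
  · rw [one_mul, inv_one, mul_one] at h2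
    exact (hM _ h2).1 (isThree _ (by decide +kernel))

theorem k_dbl (hM : NoSC M) (h : Cov2 M (swap 3 4 * swap 5 6) (cy 0 1 2)) : False :=
  kill hM h (Or.inl (isThree _ (by decide +kernel))) (cy 6 0 1) (by decide) (isThree _ (by decide +kernel))

theorem k322 (hM : NoSC M) (h : CovG M (cy 0 2 1 * (swap 3 4 * swap 5 6))) : False := by
  have ho : orderOf (cy 0 2 1 * (swap 3 4 * swap 5 6) : Perm (Fin 7)) = 6 := by
    rw [← lcm_cycleType,
      show (cy 0 2 1 * (swap 3 4 * swap 5 6) : Perm (Fin 7)).cycleType = {3, 2, 2} by decide +kernel]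
    decide
  have h1 : Cov2 M (swap 3 4 * swap 5 6) (cy 0 1 2) := h.cov2 ho (fun r => prime_six) (by decide) (by decide)
  exact k_dbl hM h1

theorem k34 (hM : NoSC M) (h : CovG M (cy 0 1 2 * (swap 3 5 * swap 5 4 * swap 4 6))) : False := by
  have ho : orderOf (cy 0 1 2 * (swap 3 5 * swap 5 4 * swap 4 6) : Perm (Fin 7)) = 12 := by
    rw [← lcm_cycleType,
      show (cy 0 1 2 * (swap 3 5 * swap 5 4 * swap 4 6) : Perm (Fin 7)).cycleType = {3, 4} by decide +kernel]
    decide
  have h1 : Cov2 M (swap 3 4 * swap 5 6) (cy 0 1 2) := h.cov2 ho (fun r => prime_twelve) (by decide) (by decide)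
  exact k_dbl hM h1

theorem k52 (hM : NoSC M) (h : CovG M (swap 2 3 * swap 3 4 * swap 4 5 * swap 5 6 * swap 0 1)) : False := by
  have ho : orderOf (swap 2 3 * swap 3 4 * swap 4 5 * swap 5 6 * swap 0 1 : Perm (Fin 7)) = 10 := by
    rw [← lcm_cycleType,
      show (swap 2 3 * swap 3 4 * swap 4 5 * swap 5 6 * swap 0 1 : Perm (Fin 7)).cycleType = {5, 2} by decide +kernel]
    decide
  have h1 : Cov2 M (swap 0 1) ((swap 2 3 * swap 3 4 * swap 4 5 * swap 5 6) ^ 2) :=
    h.cov2 ho (fun r => prime_ten) (by decide) (by decide)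
  have h2 : Cov2 M (swap 0 1) (swap 2 3 * swap 3 4 * swap 4 5 * swap 5 6) := by
    intro a ha
    rcases h1 a ha with h | h
    · exact Or.inl h
    · right
      have h3 := M.pow_mem h 3
      rw [conj_pow, ← pow_mul] at h3
      rwa [show (swap 2 3 * swap 3 4 * swap 4 5 * swap 5 6 : Perm (Fin 7)) ^ (2 * 3) =
        swap 2 3 * swap 3 4 * swap 4 5 * swap 5 6 by decide] at h3
  exact kill hM h2.symm (Or.inr ⟨0, 1, by decide, rfl⟩) (cy 4 5 6) (by decide) (isThree _ (by decide +kernel))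

theorem k6 (hM : NoSC M) (h : CovG M (swap 0 1 * swap 1 2 * swap 2 3 * swap 3 4 * swap 4 5)) : False := by
  have ho : orderOf (swap 0 1 * swap 1 2 * swap 2 3 * swap 3 4 * swap 4 5 : Perm (Fin 7)) = 6 := by
    rw [← lcm_cycleType,
      show (swap 0 1 * swap 1 2 * swap 2 3 * swap 3 4 * swap 4 5 : Perm (Fin 7)).cycleType = {6} by decide +kernel]
    decide
  have h1 : Cov2 M (swap 0 3 * swap 1 4 * swap 2 5) (cy 0 2 4 * cy 1 3 5) :=
    h.cov2 ho (fun r => prime_six) (by decide) (by decide)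
  have h2 : Cov2 M (swap 0 3 * swap 2 5) (swap 0 3 * swap 1 4 * swap 2 5) :=
    h1.symm.mv2 (swap 1 2 * swap 4 5) (by decide) (by decide) (by decide)
  have h3 : Cov2 M (swap 1 4 * swap 1 6) (swap 0 3 * swap 2 5) :=
    h2.symm.mv2 (swap 4 6 * swap 0 3) (by decide) (by decide) (by decide)
  exact kill hM h3.symm (Or.inl (isThree _ (by decide +kernel))) (cy 5 6 1) (by decide) (isThree _ (by decide +kernel))

/-- reduction to a representative -/
theorem kill_rep {g g₀ : Perm (Fin 7)} (hM : NoSC M) (hc : CovG M g) (hs : g.cycleType = g₀.cycleType)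
    (h : ∀ M' : Subgroup (Perm (Fin 7)), NoSC M' → CovG M' g₀ → False) : False := by
  obtain ⟨c, hcc⟩ := isConj_iff.1 (isConj_iff_cycleType_eq.2 hs)
  have h1 := hc.conj c
  rw [hcc] at h1
  exact h _ (hM.map c) h1

/-- **degree seven** -/
theorem kill_seven (hM : NoSC M) {g : Perm (Fin 7)} (hc : CovG M g) {r₁ r₂ : ℕ} (hr₁ : r₁.Prime) (hr₂ : r₂.Prime)
    (hlt : r₁ < r₂) (hd₁ : r₁ ∣ orderOf g) (hd₂ : r₂ ∣ orderOf g) : False := by
  have hs : g.cycleType.sum ≤ 7 := by
    rw [sum_cycleType]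
    exact g.support.card_le_univ
  have h2 : ∀ k ∈ g.cycleType, 2 ≤ k := fun k hk => two_le_of_mem_cycleType hk
  rw [← lcm_cycleType] at hd₁ hd₂
  rcases class_eight h2 (by omega) hr₁ hr₂ hlt hd₁ hd₂ with h | h | h | h | h | h | h | h
  · exact kill_rep hM hc (h.trans (by decide +kernel)) fun M' => k6
  · rw [h] at hs
    revert hs
    decide
  · exact kill_rep hM hc (h.trans (by decide +kernel)) fun M' => k34
  · exact kill_rep hM hc (h.trans (by decide +kernel)) fun M' => k32
  · exact kill_rep hM hc (h.trans (by decide +kernel)) fun M' => k322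
  · rw [h] at hs
    revert hs
    decide
  · exact kill_rep hM hc (h.trans (by decide +kernel)) fun M' => k52
  · rw [h] at hs
    revert hs
    decide

end Cfsg.Agent.H390.RR
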